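import Mathlib
import Cfsg.Agent.Lib.Helper35.JR.Defs
import Cfsg.Agent.Lib.Helper90.SylowAux

set_option autoImplicit false

/-!
# Project JR (S3206), package [AUT]
-/

namespace Cfsg.Agent.Lib.Helper90.JR

open Cfsg.Agent.Lib.Helper35.JR Cfsg.Agent.Lib.Helper90

universe u

theorem mem_centralizer_singleton' {G : Type u} [Group G] (t x : G) :
    x ∈ Subgroup.centralizer ({t} : Set G) ↔ x * t = t * x := by
  rw [Subgroup.mem_centralizer_iff]
  constructor
  · intro h; exact (h t rfl).symm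
  · intro h y hy
    rw [Set.mem_singleton_iff] at hy
    subst hy
    exact h.symm

theorem pkgAut : PkgAut.{u} := by
  intro G _ _ t ht hco hS8 hFus hZC hLoc φ k hφ hex
  obtain ⟨S, hS⟩ := hex
  classical
  haveI : Fact (Nat.Prime 2) := ⟨Nat.prime_two⟩
  have ht1 : t ≠ 1 := by
    rintro rfl
    simp at ht
  have ht2 : t ^ 2 = 1 := by
    rw [← ht]; exact pow_orderOf_eq_one t
  -- every nonidentity element of `S` is a conjugate of `t`
  have hA : ∀ s ∈ (S : Subgroup G), s ≠ 1 → ∃ g : G, s = g * t * g⁻¹ := by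
    intro s hs hs1
    obtain ⟨c, hc⟩ := exists_conj_mem_sylow S (Subgroup.zpowers t)
      (isPGroup_zpowers t 1 (by simpa using ht2))
    have h1 : c * t * c⁻¹ ∈ (S : Subgroup G) := hc t (Subgroup.mem_zpowers t)
    have h2 : c * t * c⁻¹ ≠ 1 := by
      intro h
      apply ht1
      have : t = c⁻¹ * (c * t * c⁻¹) * c := by group
      rw [this, h]; group
    obtain ⟨n, _, hn⟩ := hFus S _ h1 h2 s hs hs1
    exact ⟨n * c, by rw [← hn]; group⟩
  -- `φ` is a conjugation on each `C(s)`
  have hB : ∀ s ∈ (S : Subgroup G), s ≠ 1 → ∃ w ∈ (S : Subgroup G),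
      ∀ y : G, y * s = s * y → φ y = w * y * w⁻¹ := by
    intro s hs hs1
    obtain ⟨g, rfl⟩ := hA s hs hs1
    have hψ : ((MulAut.conj g)⁻¹ * φ * (MulAut.conj g)⁻¹⁻¹ : MulAut G) ^ (2 ^ k) = 1 := by
      rw [conj_pow]
      have : (φ : MulAut G) ^ (2 ^ k) = 1 := hφ
      rw [this]; simp
    have hψx : ∀ x, ((MulAut.conj g)⁻¹ * φ * (MulAut.conj g)⁻¹⁻¹ : MulAut G) x
        = g⁻¹ * φ (g * x * g⁻¹) * g := by
      intro x
      rw [inv_inv, MulAut.mul_apply, MulAut.mul_apply, MulAut.conj_apply, MulAut.conj_inv_apply]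
    have hS't : t ∈ ((g⁻¹ • S : Sylow 2 G) : Subgroup G) := by
      rw [mem_sylow_smul_iff]
      simpa using hs
    have hS'fix : ∀ x ∈ ((g⁻¹ • S : Sylow 2 G) : Subgroup G),
        ((MulAut.conj g)⁻¹ * φ * (MulAut.conj g)⁻¹⁻¹ : MulAut G) x = x := by
      intro x hx
      rw [mem_sylow_smul_iff] at hx
      rw [hψx, hS _ (by simpa using hx)]
      group
    obtain ⟨w', hw', hw'c⟩ := hLoc _ k hψ (g⁻¹ • S) hS't hS'fix
    refine ⟨g * w' * g⁻¹, ?_, fun y hy => ?_⟩
    · rw [mem_sylow_smul_iff] at hw'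
      simpa using hw'
    · have hy' : g⁻¹ * y * g ∈ Subgroup.centralizer ({t} : Set G) := by
        rw [mem_centralizer_singleton']
        calc g⁻¹ * y * g * t = g⁻¹ * (y * (g * t * g⁻¹)) * g := by group
          _ = g⁻¹ * (g * t * g⁻¹ * y) * g := by rw [hy]
          _ = t * (g⁻¹ * y * g) := by group
      have h3 := hw'c _ hy'
      rw [hψx] at h3
      have e : g * (g⁻¹ * y * g) * g⁻¹ = y := by group
      rw [e] at h3
      calc φ y = g * (g⁻¹ * φ y * g) * g⁻¹ := by group
        _ = g * (w' * (g⁻¹ * y * g) * w'⁻¹) * g⁻¹ := by rw [h3]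
        _ = g * w' * g⁻¹ * y * (g * w' * g⁻¹)⁻¹ := by group
  -- `Z(C(s)) = {1, s}`
  have hC : ∀ s ∈ (S : Subgroup G), s ≠ 1 → ∀ x : G, x * s = s * x →
      (∀ y : G, y * s = s * y → x * y = y * x) → x = 1 ∨ x = s := by
    intro s hs hs1 x hx hxy
    obtain ⟨g, rfl⟩ := hA s hs hs1
    have hx' : g⁻¹ * x * g ∈ Subgroup.centralizer ({t} : Set G) := by
      rw [mem_centralizer_singleton']
      calc g⁻¹ * x * g * t = g⁻¹ * (x * (g * t * g⁻¹)) * g := by group
        _ = g⁻¹ * (g * t * g⁻¹ * x) * g := by rw [hx]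
        _ = t * (g⁻¹ * x * g) := by group
    have hcen : ∀ y ∈ Subgroup.centralizer ({t} : Set G), g⁻¹ * x * g * y = y * (g⁻¹ * x * g) := by
      intro y hy
      rw [mem_centralizer_singleton'] at hy
      have h1 : g * y * g⁻¹ * (g * t * g⁻¹) = g * t * g⁻¹ * (g * y * g⁻¹) := by
        calc g * y * g⁻¹ * (g * t * g⁻¹) = g * (y * t) * g⁻¹ := by group
          _ = g * (t * y) * g⁻¹ := by rw [hy]
          _ = g * t * g⁻¹ * (g * y * g⁻¹) := by group
      have h2 := hxy _ h1
      calc g⁻¹ * x * g * y = g⁻¹ * (x * (g * y * g⁻¹)) * g := by group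
        _ = g⁻¹ * (g * y * g⁻¹ * x) * g := by rw [h2]
        _ = y * (g⁻¹ * x * g) := by group
    have hz := hZC _ hx' hcen
    obtain ⟨n, hn⟩ := Subgroup.mem_zpowers_iff.mp hz
    have hn2 : t ^ n = 1 ∨ t ^ n = t := by
      have h4 : t ^ n = t ^ (n % 2) := by
        have := zpow_mod_orderOf t n
        rw [ht] at this
        exact_mod_cast this.symm
      rcases Int.emod_two_eq_zero_or_one n with h5 | h5
      · left; rw [h4, h5, zpow_zero]
      · right; rw [h4, h5, zpow_one]
    rcases hn2 with h6 | h6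
    · left
      rw [h6] at hn
      have : x = g * (g⁻¹ * x * g) * g⁻¹ := by group
      rw [this, ← hn]; group
    · right
      rw [h6] at hn
      have : x = g * (g⁻¹ * x * g) * g⁻¹ := by group
      rw [this, ← hn]
  -- choose the conjugating elements
  have hB' : ∀ s : ↥(S : Subgroup G), ∃ w : ↥(S : Subgroup G), (s : G) ≠ 1 →
      ∀ y : G, y * (s : G) = (s : G) * y → φ y = (w : G) * y * (w : G)⁻¹ := by
    intro s
    by_cases h : (s : G) = 1
    · exact ⟨1, fun h' => absurd h h'⟩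
    · obtain ⟨w, hw, hw'⟩ := hB s s.2 h
      exact ⟨⟨w, hw⟩, fun _ => hw'⟩
  choose w hw using hB'
  haveI : Fintype ↥(S : Subgroup G) := Fintype.ofFinite _
  have hcard : Fintype.card ↥(S : Subgroup G) = 8 := by
    rw [← Nat.card_eq_fintype_card]; exact (hS8 S).1
  let F : ↥(S : Subgroup G) × Bool → ↥(S : Subgroup G) :=
    fun p => w p.1 * (if p.2 then p.1 else 1)
  let D : Finset (↥(S : Subgroup G) × Bool) :=
    ((Finset.univ : Finset (↥(S : Subgroup G) × Bool)).erase (1, true)).erase (1, false)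
  have hDcard : D.card = 14 := by
    have h1 : ((1 : ↥(S : Subgroup G)), false) ∈
        (Finset.univ : Finset (↥(S : Subgroup G) × Bool)).erase (1, true) := by
      simp
    rw [Finset.card_erase_of_mem h1, Finset.card_erase_of_mem (Finset.mem_univ _),
      Finset.card_univ, Fintype.card_prod, hcard, Fintype.card_bool]
  have hDmem : ∀ p ∈ D, (p.1 : G) ≠ 1 := by
    intro p hp
    simp only [D, Finset.mem_erase, Finset.mem_univ, and_true] at hp
    intro h
    have h1 : p.1 = 1 := Subtype.ext h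
    rcases p with ⟨s, b⟩
    simp only at h1
    subst h1
    cases b
    · exact hp.1 rfl
    · exact hp.2 rfl
  obtain ⟨p, hp, p', hp', hne, hF⟩ :=
    Finset.exists_ne_map_eq_of_card_lt_of_maps_to (s := D) (t := Finset.univ) (f := F)
      (by rw [hDcard, Finset.card_univ, hcard]; norm_num) (fun _ _ => Finset.mem_univ _)
  -- `φ` is conjugation by `F p` on `C(p.1)` for `p ∈ D`
  have hconj : ∀ q ∈ D, ∀ y : G, y * (q.1 : G) = (q.1 : G) * y →
      φ y = (F q : G) * y * (F q : G)⁻¹ := by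
    intro q hq y hy
    have h1 := hw q.1 (hDmem q hq) y hy
    rcases q with ⟨s, b⟩
    cases b
    · simpa [F] using h1
    · simp only [F, if_true, Subgroup.coe_mul]
      rw [h1]
      simp only at hy
      calc (w s : G) * y * (w s : G)⁻¹ = (w s : G) * (y * (s : G) * (s : G)⁻¹) * (w s : G)⁻¹ := by
            group
        _ = (w s : G) * ((s : G) * y * (s : G)⁻¹) * (w s : G)⁻¹ := by rw [hy]
        _ = (w s : G) * (s : G) * y * ((w s : G) * (s : G))⁻¹ := by group
  have hs1 := hDmem p hp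
  have hs1' := hDmem p' hp'
  have hss : (p.1 : G) ≠ (p'.1 : G) := by
    intro h
    have h1 : p.1 = p'.1 := Subtype.ext h
    rcases p with ⟨s, b⟩
    rcases p' with ⟨s', b'⟩
    simp only at h1
    subst h1
    have hb : b ≠ b' := fun hb => hne (by rw [hb])
    have hsne : s ≠ 1 := fun h => hs1 (by simp [h])
    simp only [F] at hF
    have h2 := mul_left_cancel hF
    cases b <;> cases b'
    · exact hb rfl
    · exact hsne (by simpa using h2.symm)
    · exact hsne (by simpa using h2)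
    · exact hb rfl
  set W : G := (F p : G) with hW
  have hW' : (F p' : G) = W := by rw [hW, hF]
  obtain ⟨g, hg⟩ := hA _ p.1.2 hs1
  -- the equaliser
  let Eq' : Subgroup G := MonoidHom.eqLocus (φ.toMonoidHom.comp (MulAut.conj g).toMonoidHom)
    ((MulAut.conj (W * g)).toMonoidHom)
  have hEq : ∀ x, x ∈ Eq' ↔ φ (g * x * g⁻¹) = W * (g * x * g⁻¹) * W⁻¹ := by
    intro x
    show φ (g * x * g⁻¹) = W * g * x * (W * g)⁻¹ ↔ _
    have : W * g * x * (W * g)⁻¹ = W * (g * x * g⁻¹) * W⁻¹ := by group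
    rw [this]
  have hle : Subgroup.centralizer ({t} : Set G) ≤ Eq' := by
    intro x hx
    rw [mem_centralizer_singleton'] at hx
    rw [hEq]
    apply hconj p hp
    rw [hg]
    calc g * x * g⁻¹ * (g * t * g⁻¹) = g * (x * t) * g⁻¹ := by group
      _ = g * (t * x) * g⁻¹ := by rw [hx]
      _ = g * t * g⁻¹ * (g * x * g⁻¹) := by group
  by_cases hE : Eq' = ⊤
  · refine ⟨W, fun x => ?_⟩
    have h1 : g⁻¹ * x * g ∈ Eq' := by rw [hE]; exact Subgroup.mem_top _
    rw [hEq] at h1
    have e : g * (g⁻¹ * x * g) * g⁻¹ = x := by group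
    rw [e] at h1
    exact h1
  · exfalso
    have hnlt : ¬ Subgroup.centralizer ({t} : Set G) < Eq' := fun h => hE (hco.2 _ h)
    have hge : Eq' ≤ Subgroup.centralizer ({t} : Set G) := by
      by_contra h
      exact hnlt (lt_of_le_not_ge hle h)
    -- every element of `C(s')` commutes with `s`
    have hcomm : ∀ y : G, y * (p'.1 : G) = (p'.1 : G) * y → (p.1 : G) * y = y * (p.1 : G) := by
      intro y hy
      have h1 := hconj p' hp' y hy
      rw [hW'] at h1
      have h2 : g⁻¹ * y * g ∈ Eq' := by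
        rw [hEq]
        have e : g * (g⁻¹ * y * g) * g⁻¹ = y := by group
        rw [e]; exact h1
      have h3 := hge h2
      rw [mem_centralizer_singleton'] at h3
      rw [hg]
      calc g * t * g⁻¹ * y = g * (t * (g⁻¹ * y * g)) * g⁻¹ := by group
        _ = g * (g⁻¹ * y * g * t) * g⁻¹ := by rw [h3]
        _ = y * (g * t * g⁻¹) := by group
    have h4 : (p.1 : G) * (p'.1 : G) = (p'.1 : G) * (p.1 : G) := hcomm _ rfl
    rcases hC _ p'.1.2 hs1' (p.1 : G) h4 hcomm with h5 | h5
    · exact hs1 h5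
    · exact hss h5

end Cfsg.Agent.Lib.Helper90.JR
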